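import Cfsg.Agent.R2.Spec.X3.PairDef
import Cfsg.Agent.H973.UF.NumEven

/-!
# Packet P-L of box X3 (S3435): the numeric lemmas for even indices (helper4)

`H A = u ^ (2 k) - 1`, `A = AA e k u`, `H = M Y`; `T B = u ^ (2 k) - 1`, `T = a M`.
-/

set_option autoImplicit false

namespace Cfsg.Agent.R2.Spec.X3.PL

open Cfsg.Agent.H403.NumTop

/-- one of the equations holds -/
def bad (A H B Y j : ℕ) : Bool :=
  Nat.beq (B * B * H + 2 * Y * (Y * A) * B * j) (Y * (2 * (Y * A) * (Y * A) * j * j + B * B)) ||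
  Nat.beq (H * B * B) (Y * (4 * (Y * A) * (Y * A) * j * j + 6 * (Y * A) * B * j + 3 * B * B)) ||
  Nat.beq (H * B * B + Y * (6 * (Y * A) * B * j)) (Y * (4 * (Y * A) * (Y * A) * j * j + 3 * B * B)) ||
  Nat.beq (27 * H * B * B) (Y * (4 * (Y * A) * (Y * A) * j * j + 18 * (Y * A) * B * j + 27 * B * B)) ||
  Nat.beq (27 * H * B * B + Y * (18 * (Y * A) * B * j)) (Y * (4 * (Y * A) * (Y * A) * j * j + 27 * B * B))

def goJ (A H B Y : ℕ) : ℕ → ℕ → Bool
  | 0, j => Nat.blt (9 * H * B * B) (j * j * (Y * Y * Y * A * A))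
  | n + 1, j => Nat.blt (9 * H * B * B) (j * j * (Y * Y * Y * A * A)) || (!bad A H B Y j && goJ A H B Y n (j + 1))

def goY (A H B : ℕ) : ℕ → ℕ → Bool
  | 0, Y => Nat.blt (9 * H * B * B) (Y * Y * Y * A * A)
  | n + 1, Y => Nat.blt (9 * H * B * B) (Y * Y * Y * A * A) || Nat.blt H (13 * Y) ||
      (goJ A H B Y 30 1 && goY A H B n (Y + 1))

theorem goJ_spec {A H B Y : ℕ} : ∀ (n j0 : ℕ), goJ A H B Y n j0 = true →
    ∀ j, j0 ≤ j → j * j * (Y * Y * Y * A * A) ≤ 9 * H * B * B → bad A H B Y j = false := by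
  have key : ∀ j0 j : ℕ, j0 ≤ j → Nat.blt (9 * H * B * B) (j0 * j0 * (Y * Y * Y * A * A)) = true →
      j * j * (Y * Y * Y * A * A) ≤ 9 * H * B * B → False := by
    intro j0 j hj h1 h2
    have h3 : 9 * H * B * B < j0 * j0 * (Y * Y * Y * A * A) := by simpa [Nat.blt] using h1
    have h4 : j0 * j0 * (Y * Y * Y * A * A) ≤ j * j * (Y * Y * Y * A * A) :=
      Nat.mul_le_mul_right _ (Nat.mul_le_mul hj hj)
    omega
  intro n
  induction n with
  | zero =>
    intro j0 h j hj h2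
    exact (key j0 j hj h h2).elim
  | succ n ih =>
    intro j0 h j hj h2
    rw [goJ, Bool.or_eq_true, Bool.and_eq_true] at h
    rcases h with h | ⟨h3, h4⟩
    · exact (key j0 j hj h h2).elim
    · rcases Nat.eq_or_lt_of_le hj with rfl | hj
      · simpa using h3
      · exact ih _ h4 j hj h2

theorem goY_spec {A H B : ℕ} : ∀ (n Y0 : ℕ), goY A H B n Y0 = true →
    ∀ Y, Y0 ≤ Y → 13 * Y ≤ H → ∀ j, 1 ≤ j → j * j * (Y * Y * Y * A * A) ≤ 9 * H * B * B → bad A H B Y j = false := by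
  have key : ∀ Y0 Y j : ℕ, Y0 ≤ Y → 1 ≤ j → Nat.blt (9 * H * B * B) (Y0 * Y0 * Y0 * A * A) = true →
      j * j * (Y * Y * Y * A * A) ≤ 9 * H * B * B → False := by
    intro Y0 Y j hY hj h1 h2
    have h3 : 9 * H * B * B < Y0 * Y0 * Y0 * A * A := by simpa [Nat.blt] using h1
    have h4 : Y0 * Y0 * Y0 * A * A ≤ Y * Y * Y * A * A := by gcongr
    have h5 : 1 * (Y * Y * Y * A * A) ≤ j * j * (Y * Y * Y * A * A) :=
      Nat.mul_le_mul_right _ (Nat.mul_pos hj hj)
    omega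
  intro n
  induction n with
  | zero =>
    intro Y0 h Y hY hH j hj h2
    exact (key Y0 Y j hY hj h h2).elim
  | succ n ih =>
    intro Y0 h Y hY hH j hj h2
    rw [goY, Bool.or_eq_true, Bool.or_eq_true, Bool.and_eq_true] at h
    rcases h with (h | h) | ⟨h3, h4⟩
    · exact (key Y0 Y j hY hj h h2).elim
    · have : H < 13 * Y0 := by simpa [Nat.blt] using h
      omega
    · rcases Nat.eq_or_lt_of_le hY with rfl | hY
      · exact goJ_spec _ _ h3 j hj h2
      · exact ih _ h4 Y hY hH j hj h2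

/-- the data -/
def Dat (x : ℤ) (M a : ℕ) : Prop :=
  (TI x M ∧ 2 * (a : ℤ) ∣ x + 1) ∨ ∃ δ, TII x M δ ∧ 2 * (a : ℤ) ∣ δ * (x - 1)

/-- **the equations** -/
theorem bad_of {x : ℤ} {M a A H B Y : ℕ} (ha : 1 ≤ a) (hd : Dat x M a) (hH : H = M * Y) (haB : a * B = Y * A) :
    ∃ j, 1 ≤ j ∧ j * j * (Y * Y * Y * A * A) ≤ 9 * H * B * B ∧ bad A H B Y j = true := by
  have bound : ∀ j : ℕ, (j : ℤ) ^ 2 * (a : ℤ) ^ 2 ≤ 9 * M → j * j * (Y * Y * Y * A * A) ≤ 9 * H * B * B := by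
    intro j hj
    have hj' : j ^ 2 * a ^ 2 ≤ 9 * M := by exact_mod_cast hj
    calc j * j * (Y * Y * Y * A * A) = j ^ 2 * (Y * A) * (Y * A) * Y := by ring
      _ = j ^ 2 * a ^ 2 * (B * B * Y) := by rw [← haB]; ring
      _ ≤ 9 * M * (B * B * Y) := Nat.mul_le_mul_right _ hj'
      _ = 9 * H * B * B := by rw [hH]; ring
  have haBZ : (a : ℤ) * B = Y * A := by exact_mod_cast haB
  have ha0 : (0 : ℤ) < a := by exact_mod_cast ha
  rcases hd with ⟨⟨h1, h2, h3⟩, c, hc⟩ | ⟨δ, ⟨h1, h2, h3, h4⟩, c, hc⟩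
  · have hc0 : 0 < c := by
      by_contra hcon
      push Not at hcon
      nlinarith
    obtain ⟨j, rfl⟩ : ∃ j : ℕ, c = j := ⟨c.toNat, (Int.toNat_of_nonneg hc0.le).symm⟩
    have hx : x = 2 * (a * j) - 1 := by linarith
    refine ⟨j, by omega, bound j ?_, ?_⟩
    · have e : (j : ℤ) ^ 2 * (a : ℤ) ^ 2 * 4 = (x + 1) ^ 2 := by rw [hc]; ring
      nlinarith
    · have hM : (M : ℤ) = 2 * a ^ 2 * j ^ 2 - 2 * a * j + 1 := by
        rw [hx] at h3
        linarith [show (2 * ((a : ℤ) * j) - 1) ^ 2 + 1 = 2 * (2 * a ^ 2 * j ^ 2 - 2 * a * j + 1) by ring]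
      have key : B * B * H + 2 * Y * (Y * A) * B * j = Y * (2 * (Y * A) * (Y * A) * j * j + B * B) := by
        have : ((B * B * H + 2 * Y * (Y * A) * B * j : ℕ) : ℤ) = ((Y * (2 * (Y * A) * (Y * A) * j * j + B * B) : ℕ) : ℤ) := by
          rw [hH, ← haB]
          push_cast
          rw [hM]
          ring
        exact_mod_cast this
      unfold bad
      simp only [Bool.or_eq_true, Nat.beq_eq]
      exact Or.inl (Or.inl (Or.inl (Or.inl key)))
  · have hδ0 : 0 < δ := by rcases h3 with ⟨rfl, -⟩ | ⟨rfl, -⟩ <;> norm_num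
    have hcne : c ≠ 0 := by
      rintro rfl
      rw [mul_zero] at hc
      rcases mul_eq_zero.1 hc with h5 | h5 <;> omega
    have hb : c ^ 2 * (a : ℤ) ^ 2 ≤ 9 * M := by
      have e : c ^ 2 * (a : ℤ) ^ 2 * 4 = (δ * (x - 1)) ^ 2 := by rw [hc]; ring
      rcases h3 with ⟨rfl, -⟩ | ⟨rfl, -⟩
      · rcases h2 with h2 | h2 <;> nlinarith
      · rcases h2 with h2 | h2 <;> nlinarith
    have hM : δ ^ 3 * (M : ℤ) = 4 * (a * c) ^ 2 + 6 * (a * c) * δ + 3 * δ ^ 2 := by
      have e : δ * x = 2 * a * c + δ := by linear_combination hc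
      calc δ ^ 3 * (M : ℤ) = δ ^ 2 * (δ * M) := by ring
        _ = (δ * x) ^ 2 + δ * (δ * x) + δ ^ 2 := by rw [h4]; ring
        _ = _ := by rw [e]; ring
    have hMB : δ ^ 3 * ((M : ℤ) * Y) * B * B = Y * (4 * (Y * A) * (Y * A) * c * c + 6 * (Y * A) * B * δ * c + 3 * δ ^ 2 * B * B) := by
      rw [← haBZ]
      linear_combination ((Y : ℤ) * B * B) * hM
    rcases lt_or_gt_of_ne hcne with hc0 | hc0
    · obtain ⟨j, rfl⟩ : ∃ j : ℕ, c = -j := ⟨(-c).toNat, by rw [Int.toNat_of_nonneg (by omega)]; ring⟩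
      refine ⟨j, by omega, bound j (by linarith [show ((j : ℤ)) ^ 2 = (-(j : ℤ)) ^ 2 by ring]), ?_⟩
      unfold bad
      simp only [Bool.or_eq_true, Nat.beq_eq]
      rcases h3 with ⟨rfl, -⟩ | ⟨rfl, -⟩
      · refine Or.inl (Or.inl (Or.inr ?_))
        have : ((H * B * B + Y * (6 * (Y * A) * B * j) : ℕ) : ℤ) = ((Y * (4 * (Y * A) * (Y * A) * j * j + 3 * B * B) : ℕ) : ℤ) := by
          rw [hH]
          push_cast
          linear_combination hMB
        exact_mod_cast this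
      · refine Or.inr ?_
        have : ((27 * H * B * B + Y * (18 * (Y * A) * B * j) : ℕ) : ℤ) = ((Y * (4 * (Y * A) * (Y * A) * j * j + 27 * B * B) : ℕ) : ℤ) := by
          rw [hH]
          push_cast
          linear_combination hMB
        exact_mod_cast this
    · obtain ⟨j, rfl⟩ : ∃ j : ℕ, c = j := ⟨c.toNat, (Int.toNat_of_nonneg hc0.le).symm⟩
      refine ⟨j, by omega, bound j hb, ?_⟩
      unfold bad
      simp only [Bool.or_eq_true, Nat.beq_eq]
      rcases h3 with ⟨rfl, -⟩ | ⟨rfl, -⟩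
      · refine Or.inl (Or.inl (Or.inl (Or.inr ?_)))
        have : ((H * B * B : ℕ) : ℤ) = ((Y * (4 * (Y * A) * (Y * A) * j * j + 6 * (Y * A) * B * j + 3 * B * B) : ℕ) : ℤ) := by
          rw [hH]
          push_cast
          linear_combination hMB
        exact_mod_cast this
      · refine Or.inl (Or.inr ?_)
        have : ((27 * H * B * B : ℕ) : ℤ) = ((Y * (4 * (Y * A) * (Y * A) * j * j + 18 * (Y * A) * B * j + 27 * B * B) : ℕ) : ℤ) := by
          rw [hH]
          push_cast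
          linear_combination hMB
        exact_mod_cast this

/-- the checks -/
def ckTop (k u : ℕ) : Bool :=
  let P := u ^ k
  Nat.ble u 1 ||
  (goY (P - 1) (P + 1) ((u - 1) * Nat.gcd (2 * k) (u - 1)) 12 1 &&
   (if k % 2 = 0 then goY (P - 1) (P + 1) ((u + 1) * Nat.gcd (2 * k) (u + 1)) 12 1
    else goY (P + 1) (P - 1) ((u + 1) * Nat.gcd (2 * k) (u + 1)) 12 1))

def ckPred (k u : ℕ) : Bool :=
  let P := u ^ k
  Nat.ble u 1 ||
  (goY (P - 1) (P + 1) (Nat.gcd (2 * k + 1) (u - 1)) 12 1 &&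
   (if k % 2 = 0 then goY (P - 1) (P + 1) (Nat.gcd (2 * k + 1) (u + 1)) 12 1
    else goY (P + 1) (P - 1) (Nat.gcd (2 * k + 1) (u + 1)) 12 1))

theorem ckTop3 : ((List.range 340).all fun u => ckTop 3 u) = true := by decide +kernel
theorem ckTop4 : ((List.range 6).all fun i => (List.range 30).all fun u => ckTop (i + 4) u) = true := by decide +kernel
theorem ckPred2 : ((List.range 20).all fun u => ckPred 2 u) = true := by decide +kernel
theorem ckPred3 : ((List.range 4).all fun i => (List.range 12).all fun u => ckPred (i + 3) u) = true := by decide +kernel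

end Cfsg.Agent.R2.Spec.X3.PL
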