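import Cfsg.Agent.R2.Spec.X3.PL.NumEven

/-!
# Packet P-L of box X3 (S3435): the numeric lemmas for even indices, the conclusions (helper4)
-/

set_option autoImplicit false

namespace Cfsg.Agent.R2.Spec.X3.PL

open Cfsg.Agent.H403.NumTop

theorem AA_one_true (u : ℕ) : AA true 1 u = u - 1 := by
  unfold AA
  simp

theorem AA_one_false (u : ℕ) : AA false 1 u = u + 1 := by
  unfold AA
  simp

theorem goY_of {e : Bool} {k u H : ℕ} (f : ℕ → ℕ)
    (hc : (let P := u ^ k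
      Nat.ble u 1 || (goY (P - 1) (P + 1) (f (u - 1)) 12 1 &&
        (if k % 2 = 0 then goY (P - 1) (P + 1) (f (u + 1)) 12 1
          else goY (P + 1) (P - 1) (f (u + 1)) 12 1))) = true)
    (hu : 2 ≤ u) (hk : 1 ≤ k) (hH : H * AA e k u = u ^ (2 * k) - 1) :
    goY (AA e k u) H (f (AA e 1 u)) 12 1 = true := by
  simp only [Bool.or_eq_true, Bool.and_eq_true] at hc
  have h1 : 2 ≤ u ^ k := hu.trans (Nat.le_self_pow (by omega) u)
  rcases hc with hc | ⟨h2, h3⟩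
  · have := Nat.le_of_ble_eq_true hc
    omega
  · cases e with
    | true =>
      rw [AA_one_true]
      have hA : AA true k u = u ^ k - 1 := by unfold AA; simp
      rcases H973.UF.AA_cases true hu hk hH with ⟨h4, h5⟩ | ⟨h4, h5⟩
      · rw [h5, hA]; exact h2
      · omega
    | false =>
      rw [AA_one_false]
      by_cases hk2 : k % 2 = 0
      · rw [if_pos hk2] at h3
        have hA : AA false k u = u ^ k - 1 := by unfold AA; simp [hk2]
        rcases H973.UF.AA_cases false hu hk hH with ⟨h4, h5⟩ | ⟨h4, h5⟩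
        · rw [h5, hA]; exact h3
        · omega
      · rw [if_neg hk2] at h3
        have hA : AA false k u = u ^ k + 1 := by unfold AA; simp [hk2]
        rcases H973.UF.AA_cases false hu hk hH with ⟨h4, h5⟩ | ⟨h4, h5⟩
        · omega
        · rw [show H = u ^ k - 1 by omega, hA]; exact h3

theorem no_of_big {A H B Y j b : ℕ} (hHA : H ≤ A + 2) (hB : B ≤ b) (hA : 9 * b ^ 2 + 3 ≤ A) (hY : 1 ≤ Y) (hj : 1 ≤ j)
    (h2 : j * j * (Y * Y * Y * A * A) ≤ 9 * H * B * B) : False := by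
  have h3 : 1 * 1 * (1 * 1 * 1 * A * A) ≤ j * j * (Y * Y * Y * A * A) := by gcongr
  have h4 : 9 * H * B * B ≤ 9 * (A + 2) * b * b := by gcongr
  have h5 : A * A ≤ 9 * (A + 2) * b * b := by linarith
  have h6 : (9 * b ^ 2 + 3) * A ≤ A * A := Nat.mul_le_mul_right _ hA
  nlinarith

theorem sz_a {u x : ℤ} (hu : 2 ≤ u) (h2 : 7 ≤ x ∨ x ≤ -13) (h7 : u - 1 ≤ |x - 1|) (h8 : 2 * (x ^ 2 + x + 1) ≤ u ^ 2 + 1) :
    False := by
  have h9 : u ^ 2 ≤ (|x - 1| + 1) ^ 2 := pow_le_pow_left₀ (by omega) (by omega) 2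
  rcases h2 with h2 | h2
  · rw [abs_of_nonneg (by omega : 0 ≤ x - 1)] at h9
    nlinarith
  · rw [abs_of_nonpos (by omega : x - 1 ≤ 0)] at h9
    nlinarith

theorem sz_b {u x : ℤ} (hu : 2 ≤ u) (h2 : 7 ≤ x ∨ x ≤ -13) (h7 : 7 * (u - 1) ≤ 6 * |x - 1|)
    (h8 : 7 * (x ^ 2 + x + 1) ≤ 3 * (u ^ 2 + 1)) : False := by
  have h9 : (7 * u) ^ 2 ≤ (6 * |x - 1| + 7) ^ 2 := pow_le_pow_left₀ (by omega) (by omega) 2
  rcases h2 with h2 | h2
  · rw [abs_of_nonneg (by omega : 0 ≤ x - 1)] at h9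
    nlinarith
  · rw [abs_of_nonpos (by omega : x - 1 ≤ 0)] at h9
    nlinarith

theorem sz_c {u x : ℤ} (hu : 2 ≤ u) (h2 : 5 ≤ x) (h7 : 3 * (u - 1) ≤ 2 * (x + 1))
    (h8 : 3 * (x ^ 2 + 1) ≤ 2 * (u ^ 2 + 1)) : False := by
  have h9 : (3 * u) ^ 2 ≤ (2 * x + 5) ^ 2 := pow_le_pow_left₀ (by omega) (by omega) 2
  nlinarith

theorem sz_d {u x : ℤ} (hu : 2 ≤ u) (h2 : 7 ≤ x ∨ x ≤ -13) (hE : x ^ 2 + x = u ^ 2) : False := by
  rcases h2 with h2 | h2
  · have h9 : x < u := by nlinarith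
    nlinarith
  · have h9 : -x - 1 < u := by nlinarith
    nlinarith

section

variable {u k M a H : ℕ} {x : ℤ} (e : Bool) (hu : 2 ≤ u) (hM : 13 ≤ M) (ha : 1 ≤ a) (hd : Dat x M a)
  (hH : H * AA e k u = u ^ (2 * k) - 1) (hMH : M ∣ H)
include hu hM ha hd hH hMH

/-- the common part -/
theorem common {B : ℕ} (hk : 1 ≤ k) (hT : a * M * B = u ^ (2 * k) - 1) :
    ∃ Y j, 1 ≤ Y ∧ H = M * Y ∧ a * B = Y * AA e k u ∧ H ≤ AA e k u + 2 ∧ u ^ k ≤ AA e k u + 1 ∧ 1 ≤ j ∧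
      j * j * (Y * Y * Y * AA e k u * AA e k u) ≤ 9 * H * B * B ∧ bad (AA e k u) H B Y j = true := by
  have h1 : 2 ≤ u ^ k := hu.trans (Nat.le_self_pow (by omega) u)
  have hAA := H973.UF.AA_cases e hu hk hH
  obtain ⟨Y, hY⟩ := hMH
  have hY1 : 1 ≤ Y := by
    rcases Nat.eq_zero_or_pos Y with rfl | h2
    · rcases hAA with ⟨-, h3⟩ | ⟨-, h3⟩ <;> omega
    · exact h2
  have haB : a * B = Y * AA e k u := by
    have : M * (a * B) = M * (Y * AA e k u) := by
      rw [← mul_assoc, mul_comm M a, hT, ← hH, hY]; ring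
    exact Nat.eq_of_mul_eq_mul_left (by omega) this
  obtain ⟨j, hj1, hj2, hj3⟩ := bad_of ha hd hY haB
  refine ⟨Y, j, hY1, hY, haB, ?_, ?_, hj1, hj2, hj3⟩
  · rcases hAA with ⟨h3, h4⟩ | ⟨h3, h4⟩ <;> omega
  · rcases hAA with ⟨h3, h4⟩ | ⟨h3, h4⟩ <;> omega

omit hM ha hd hH hMH in
theorem B_le (hk : 1 ≤ k) : AA e 1 u * Nat.gcd (2 * k) (AA e 1 u) ≤ (u + 1) * (2 * k) ∧
    AA e 1 u * Nat.gcd (2 * k) (AA e 1 u) ≤ (u + 1) * (u + 1) := by
  have h1 : AA e 1 u ≤ u + 1 := by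
    cases e
    · rw [AA_one_false]
    · rw [AA_one_true]; omega
  have h2 : 0 < AA e 1 u := by
    cases e
    · rw [AA_one_false]; omega
    · rw [AA_one_true]; omega
  exact ⟨Nat.mul_le_mul h1 (Nat.gcd_le_left _ (by omega)), Nat.mul_le_mul h1 ((Nat.gcd_le_right _ h2).trans h1)⟩

omit hM ha hd hH hMH in
theorem B_le' : Nat.gcd (2 * k + 1) (AA e 1 u) ≤ 2 * k + 1 ∧ Nat.gcd (2 * k + 1) (AA e 1 u) ≤ u + 1 := by
  have h1 : AA e 1 u ≤ u + 1 := by
    cases e
    · rw [AA_one_false]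
    · rw [AA_one_true]; omega
  have h2 : 0 < AA e 1 u := by
    cases e
    · rw [AA_one_false]; omega
    · rw [AA_one_true]; omega
  exact ⟨Nat.gcd_le_left _ (by omega), (Nat.gcd_le_right _ h2).trans h1⟩

/-- **`n = 2 k`, `k ≥ 3`** -/
theorem num_even_top3 (hk : 3 ≤ k) (hT : a * M * (AA e 1 u * Nat.gcd (2 * k) (AA e 1 u)) = u ^ (2 * k) - 1) : False := by
  obtain ⟨Y, j, hY, hHY, haB, hHA, hA, hj, hj2, hj3⟩ := common e hu hM ha hd hH hMH (by omega) hT
  obtain ⟨hB1, hB2⟩ := B_le e hu (k := k) (by omega)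
  have chk : ckTop k u = true → False := by
    intro hc
    have h1 := goY_of (e := e) (fun v => v * Nat.gcd (2 * k) v) hc hu (by omega) hH
    have h2 := goY_spec _ _ h1 Y hY (by rw [hHY]; exact Nat.mul_le_mul_right _ hM) j hj hj2
    rw [h2] at hj3
    exact Bool.noConfusion hj3
  rcases Nat.lt_or_ge k 10 with hk10 | hk10
  · rcases Nat.eq_or_lt_of_le hk with rfl | hk4
    · rcases Nat.lt_or_ge u 340 with hu3 | hu3
      · exact chk (List.all_eq_true.1 ckTop3 u (List.mem_range.2 hu3))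
      · refine no_of_big hHA hB1 ?_ hY hj hj2
        have : 324 * (u + 1) ^ 2 + 4 ≤ u ^ 3 := by
          obtain ⟨t, rfl⟩ : ∃ t, u = 340 + t := ⟨u - 340, by omega⟩
          nlinarith [sq_nonneg t, Nat.zero_le (t ^ 3)]
        nlinarith
    · rcases Nat.lt_or_ge u 30 with hu3 | hu3
      · have h1 := List.all_eq_true.1 (List.all_eq_true.1 ckTop4 (k - 4) (List.mem_range.2 (by omega))) u
          (List.mem_range.2 hu3)
        rw [show k - 4 + 4 = k by omega] at h1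
        exact chk h1
      · refine no_of_big hHA hB1 ?_ hY hj hj2
        have key : 44 * (k ^ 2 * u ^ 2) ≤ u ^ k := by
          clear * - hk4 hu3
          induction k, (show 4 ≤ k from hk4) using Nat.le_induction with
          | base =>
            have h1 : 30 ^ 2 ≤ u ^ 2 := Nat.pow_le_pow_left hu3 2
            have h2 : u ^ 4 = u ^ 2 * u ^ 2 := by ring
            rw [h2]
            nlinarith
          | succ k hk ih =>
            have ih' := ih (by omega)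
            have h1 : 44 * (k ^ 2 * u ^ 2) * 30 ≤ u ^ k * u := Nat.mul_le_mul ih' hu3
            have h2 : (k + 1) ^ 2 ≤ 30 * k ^ 2 := by nlinarith
            calc 44 * ((k + 1) ^ 2 * u ^ 2) ≤ 44 * (30 * k ^ 2 * u ^ 2) :=
                  Nat.mul_le_mul_left _ (Nat.mul_le_mul_right _ h2)
              _ = 44 * (k ^ 2 * u ^ 2) * 30 := by ring
              _ ≤ u ^ k * u := h1
              _ = u ^ (k + 1) := (pow_succ _ _).symm
        have h5 : (u + 1) ^ 2 * 30 ≤ 33 * u ^ 2 := by nlinarith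
        have h6 : 1 ≤ k ^ 2 * u ^ 2 := Nat.mul_pos (by positivity) (by positivity)
        have h7 : k ^ 2 * ((u + 1) ^ 2 * 30) ≤ k ^ 2 * (33 * u ^ 2) := Nat.mul_le_mul_left _ h5
        have e1 : 9 * ((u + 1) * (2 * k)) ^ 2 = 36 * (k ^ 2 * (u + 1) ^ 2) := by ring
        rw [e1]
        have : 36 * (k ^ 2 * (u + 1) ^ 2) + 4 ≤ 44 * (k ^ 2 * u ^ 2) := by nlinarith
        omega
  · refine no_of_big hHA hB2 ?_ hY hj hj2
    have h1 : u ^ 10 ≤ u ^ k := Nat.pow_le_pow_right (by omega) hk10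
    have h2 : 9 * ((u + 1) * (u + 1)) ^ 2 + 4 ≤ u ^ 10 := by
      have h3 : 64 * u ^ 4 ≤ u ^ 10 := by
        calc 64 * u ^ 4 = 2 ^ 6 * u ^ 4 := by norm_num
          _ ≤ u ^ 6 * u ^ 4 := Nat.mul_le_mul_right _ (Nat.pow_le_pow_left hu 6)
          _ = u ^ 10 := by ring
      have h4 : (2 * (u + 1)) ^ 4 ≤ (3 * u) ^ 4 := Nat.pow_le_pow_left (by omega) 4
      have h5 : 2 ^ 4 ≤ u ^ 4 := Nat.pow_le_pow_left hu 4
      have e1 : (2 * (u + 1)) ^ 4 = 16 * ((u + 1) * (u + 1)) ^ 2 := by ring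
      have e2 : (3 * u) ^ 4 = 81 * u ^ 4 := by ring
      rw [e1, e2] at h4
      omega
    omega

/-- **`n = 2 k + 1`, `k ≥ 2`** -/
theorem num_even_pred (hk : 2 ≤ k) (hT : a * M * Nat.gcd (2 * k + 1) (AA e 1 u) = u ^ (2 * k) - 1) : False := by
  obtain ⟨Y, j, hY, hHY, haB, hHA, hA, hj, hj2, hj3⟩ := common e hu hM ha hd hH hMH (by omega) hT
  obtain ⟨hB1, hB2⟩ := B_le' e hu (k := k)
  have chk : ckPred k u = true → False := by
    intro hc
    have h1 := goY_of (e := e) (fun v => Nat.gcd (2 * k + 1) v) hc hu (by omega) hH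
    have h2 := goY_spec _ _ h1 Y hY (by rw [hHY]; exact Nat.mul_le_mul_right _ hM) j hj hj2
    rw [h2] at hj3
    exact Bool.noConfusion hj3
  rcases Nat.lt_or_ge k 7 with hk7 | hk7
  · rcases Nat.eq_or_lt_of_le hk with rfl | hk3
    · rcases Nat.lt_or_ge u 20 with hu3 | hu3
      · exact chk (List.all_eq_true.1 ckPred2 u (List.mem_range.2 hu3))
      · refine no_of_big hHA hB1 ?_ hY hj hj2
        have : 20 ^ 2 ≤ u ^ 2 := Nat.pow_le_pow_left hu3 2
        omega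
    · rcases Nat.lt_or_ge u 12 with hu3 | hu3
      · have h1 := List.all_eq_true.1 (List.all_eq_true.1 ckPred3 (k - 3) (List.mem_range.2 (by omega))) u
          (List.mem_range.2 hu3)
        rw [show k - 3 + 3 = k by omega] at h1
        exact chk h1
      · refine no_of_big hHA hB2 ?_ hY hj hj2
        have h1 : u ^ 3 ≤ u ^ k := Nat.pow_le_pow_right (by omega) (by omega)
        have h2 : 9 * (u + 1) ^ 2 + 4 ≤ u ^ 3 := by
          obtain ⟨t, rfl⟩ : ∃ t, u = 12 + t := ⟨u - 12, by omega⟩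
          nlinarith [sq_nonneg t, Nat.zero_le (t ^ 3)]
        omega
  · refine no_of_big hHA hB2 ?_ hY hj hj2
    have h1 : u ^ 7 ≤ u ^ k := Nat.pow_le_pow_right (by omega) hk7
    have h2 : 9 * (u + 1) ^ 2 + 4 ≤ u ^ 7 := by
      have h3 : 32 * u ^ 2 ≤ u ^ 7 := by
        calc 32 * u ^ 2 = 2 ^ 5 * u ^ 2 := by norm_num
          _ ≤ u ^ 5 * u ^ 2 := Nat.mul_le_mul_right _ (Nat.pow_le_pow_left hu 5)
          _ = u ^ 7 := by ring
      nlinarith
    omega

/-- **`n = 4`, the top torus** -/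
theorem num_even_four (hk : k = 2) (hModd : M % 2 = 1)
    (hT : a * M * (AA e 1 u * Nat.gcd (2 * k) (AA e 1 u)) = u ^ (2 * k) - 1) : (u : ℤ) = x := by
  subst hk
  obtain ⟨Y, j, hY, hHY, haB, -, -, -, -, -⟩ := common e hu hM ha hd hH hMH (by omega) hT
  -- the data over `ℤ`
  have hA : AA e 2 u = u ^ 2 - 1 := by unfold AA; simp
  have hu2 : 1 ≤ u ^ 2 := Nat.one_le_pow _ _ (by omega)
  have hHv : H = u ^ 2 + 1 := by
    rcases H973.UF.AA_cases e hu (by omega) hH with ⟨h4, h5⟩ | ⟨h4, h5⟩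
    · exact h5
    · omega
  have hMY : (M : ℤ) * Y = u ^ 2 + 1 := by
    rw [hHv] at hHY
    exact_mod_cast hHY.symm
  obtain ⟨g, hg⟩ : ∃ g, g = Nat.gcd (2 * 2) (AA e 1 u) := ⟨_, rfl⟩
  rw [← hg] at haB
  have hg4 : g ≤ 4 := by rw [hg]; exact Nat.gcd_le_left _ (by norm_num)
  -- `a g = Y (u ± 1)`
  have hag : Y * (u - 1) ≤ a * g ∧ (g = 1 → Y * (u - 1) ≤ a) := by
    have key : Y * (u - 1) ≤ a * g := by
      cases e with
      | true =>
        rw [AA_one_true, hA] at haB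
        obtain ⟨v, rfl⟩ : ∃ v, u = v + 1 := ⟨u - 1, by omega⟩
        have e1 : (v + 1) ^ 2 - 1 = v * (v + 2) := by
          rw [show (v + 1) ^ 2 = v * (v + 2) + 1 by ring, Nat.add_sub_cancel]
        rw [e1, Nat.add_sub_cancel] at haB
        have h2 : v * (a * g) = v * (Y * (v + 2)) := by linarith
        have h3 := Nat.eq_of_mul_eq_mul_left (by omega : 0 < v) h2
        rw [h3, Nat.add_sub_cancel]
        exact Nat.mul_le_mul_left _ (by omega)
      | false =>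
        rw [AA_one_false, hA] at haB
        obtain ⟨v, rfl⟩ : ∃ v, u = v + 1 := ⟨u - 1, by omega⟩
        have e1 : (v + 1) ^ 2 - 1 = v * (v + 2) := by
          rw [show (v + 1) ^ 2 = v * (v + 2) + 1 by ring, Nat.add_sub_cancel]
        rw [e1] at haB
        have h2 : (v + 2) * (a * g) = (v + 2) * (Y * v) := by linarith
        have h3 := Nat.eq_of_mul_eq_mul_left (by omega : 0 < v + 2) h2
        rw [h3, Nat.add_sub_cancel]
    exact ⟨key, fun h1 => by rw [h1, mul_one] at key; exact key⟩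
  have hg1 : u % 2 = 0 → g = 1 := by
    intro hu2
    have h1 : Nat.Coprime 2 (AA e 1 u) := by
      rw [Nat.coprime_two_left, Nat.odd_iff]
      cases e
      · rw [AA_one_false]; omega
      · rw [AA_one_true]; omega
    rw [hg]
    exact (Nat.Coprime.mul_left h1 h1)
  have hYZ : (1 : ℤ) ≤ Y := by exact_mod_cast hY
  have huZ : (2 : ℤ) ≤ u := by exact_mod_cast hu
  have hagZ : (Y : ℤ) * (u - 1) ≤ 4 * a := by
    have h1 : Y * (u - 1) ≤ a * 4 := hag.1.trans (Nat.mul_le_mul_left _ hg4)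
    have h2 : ((Y * (u - 1) : ℕ) : ℤ) ≤ ((a * 4 : ℕ) : ℤ) := by exact_mod_cast h1
    push_cast [Nat.cast_sub (by omega : 1 ≤ u)] at h2
    linarith
  have hag1 : u % 2 = 0 → (Y : ℤ) * (u - 1) ≤ a := by
    intro h0
    have h1 : Y * (u - 1) ≤ a := hag.2 (hg1 h0)
    have h2 : ((Y * (u - 1) : ℕ) : ℤ) ≤ ((a : ℕ) : ℤ) := by exact_mod_cast h1
    push_cast [Nat.cast_sub (by omega : 1 ≤ u)] at h2
    linarith
  rcases hd with ⟨⟨h1, h2, h3⟩, h4⟩ | ⟨δ, ⟨h1, h2, h3, h4⟩, h5⟩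
  · -- type I
    have h5 := Int.le_of_dvd (by omega) h4
    have hE : (Y : ℤ) * (x ^ 2 + 1) = 2 * (u ^ 2 + 1) := by rw [← h3, ← hMY]; ring
    rcases (by omega : (Y : ℤ) = 1 ∨ (Y : ℤ) = 2 ∨ 3 ≤ (Y : ℤ)) with h6 | h6 | h6
    · exfalso
      rw [h6, mul_one] at hMY
      have hu0 : u % 2 = 0 := by
        rcases Nat.mod_two_eq_zero_or_one u with h7 | h7
        · exact h7
        · exfalso
          have h8 : M = u ^ 2 + 1 := by exact_mod_cast hMY
          have h9 : u ^ 2 % 2 = 1 := by rw [Nat.pow_mod, h7]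
          omega
      have h7 := hag1 hu0
      rw [h6, one_mul] at h7 hE
      have hu6 : (u : ℤ) < 6 := by
        by_contra hcon
        push Not at hcon
        nlinarith
      have hu24 : u = 2 ∨ u = 4 := by omega
      rcases hu24 with rfl | rfl
      · norm_num at hE; nlinarith
      · norm_num at hE
        have : x < 7 := by nlinarith
        have : x = 5 := by omega
        rw [this] at hE
        norm_num at hE
    · rw [h6] at hE
      have h7 : ((u : ℤ) - x) * (u + x) = 0 := by linarith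
      rcases mul_eq_zero.1 h7 with h8 | h8 <;> omega
    · exfalso
      have h7 : 3 * ((u : ℤ) - 1) ≤ Y * (u - 1) := mul_le_mul_of_nonneg_right h6 (by omega)
      have h8 : 3 * (x ^ 2 + 1) ≤ Y * (x ^ 2 + 1) := mul_le_mul_of_nonneg_right h6 (by positivity)
      exact sz_c huZ h2 (by linarith) (by linarith)
  · exfalso
    have hne : δ * (x - 1) ≠ 0 := by
      rcases h3 with ⟨rfl, -⟩ | ⟨rfl, -⟩ <;> omega
    have h6 := Int.le_of_dvd (abs_pos.2 hne) ((dvd_abs _ _).2 h5)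
    have hδ0 : 0 < δ := by rcases h3 with ⟨rfl, -⟩ | ⟨rfl, -⟩ <;> norm_num
    rw [abs_mul, abs_of_pos hδ0] at h6
    have h7 : (Y : ℤ) * (u - 1) ≤ 2 * (δ * |x - 1|) := by linarith
    have hE : (Y : ℤ) * (x ^ 2 + x + 1) = δ * (u ^ 2 + 1) := by rw [← h4, ← hMY]; ring
    have hx0 : 0 < x ^ 2 + x + 1 := by rcases h2 with h2 | h2 <;> nlinarith
    rcases h3 with ⟨rfl, -⟩ | ⟨rfl, -⟩
    · rcases (by omega : (Y : ℤ) = 1 ∨ 2 ≤ (Y : ℤ)) with h8 | h8
      · rw [h8] at hE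
        exact sz_d huZ h2 (by linarith)
      · have h9 : 2 * ((u : ℤ) - 1) ≤ Y * (u - 1) := mul_le_mul_of_nonneg_right h8 (by omega)
        have h10 : 2 * (x ^ 2 + x + 1) ≤ Y * (x ^ 2 + x + 1) := mul_le_mul_of_nonneg_right h8 (by omega)
        exact sz_a huZ h2 (by linarith) (by linarith)
    · -- `δ = 3`
      have hM3 : M % 4 = 3 := by
        obtain ⟨t, rfl⟩ : ∃ t, x = 4 * t + 3 := ⟨x / 4, by omega⟩
        have : 3 * (M : ℤ) = 4 * (4 * t ^ 2 + 7 * t + 3) + 1 := by linarith [h4, show (4 * t + 3) ^ 2 + (4 * t + 3) + 1 = 4 * (4 * t ^ 2 + 7 * t + 3) + 1 by ring]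
        omega
      have hMY' : M * Y = u ^ 2 + 1 := by exact_mod_cast hMY
      have hY7 : 7 ≤ Y := by
        by_contra hcon
        push Not at hcon
        obtain ⟨m, hm⟩ : ∃ m, M = 4 * m + 3 := ⟨M / 4, by omega⟩
        have hs8 : u ^ 2 % 8 = 0 ∨ u ^ 2 % 8 = 1 ∨ u ^ 2 % 8 = 4 := by
          have : u % 8 = 0 ∨ u % 8 = 1 ∨ u % 8 = 2 ∨ u % 8 = 3 ∨ u % 8 = 4 ∨ u % 8 = 5 ∨ u % 8 = 6 ∨ u % 8 = 7 := by omega
          rcases this with h | h | h | h | h | h | h | h <;> simp [Nat.pow_mod, h]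
        have hs3 : u ^ 2 % 3 = 0 ∨ u ^ 2 % 3 = 1 := by
          have : u % 3 = 0 ∨ u % 3 = 1 ∨ u % 3 = 2 := by omega
          rcases this with h | h | h <;> simp [Nat.pow_mod, h]
        generalize u ^ 2 = w at hMY' hs8 hs3
        rw [hm] at hMY'
        interval_cases Y <;> omega
      have hY7Z : (7 : ℤ) ≤ Y := by exact_mod_cast hY7
      have h9 : 7 * ((u : ℤ) - 1) ≤ Y * (u - 1) := mul_le_mul_of_nonneg_right hY7Z (by omega)
      have h10 : 7 * (x ^ 2 + x + 1) ≤ Y * (x ^ 2 + x + 1) := mul_le_mul_of_nonneg_right hY7Z (by omega)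
      exact sz_b huZ h2 (by linarith) (by linarith)

end

end Cfsg.Agent.R2.Spec.X3.PL
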