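import Cfsg.Agent.R2.Spec.X3.PL.Small
import Cfsg.Agent.R2.Spec.X3.PairDef

/-!
# Packet P-L of box X3 (S3435): the numeric lemma for odd indices (helper4)
-/

set_option autoImplicit false

namespace Cfsg.Agent.R2.Spec.X3.PL

/-- the exceptional pairs -/
def ckE (T N y : ℤ) (h : ℕ) : Bool :=
  !(decide (T * ((y * y ^ h - 1) * (y ^ h - 1)) = N * (y * (y ^ h) ^ 2 - 1))) ||
    (Nat.beq h 1 && (decide (T = 13 ∧ N = 8 ∧ y = 3) || decide (T = 19 ∧ N = 21 ∧ y = -8) ||
      decide (T = 91 ∧ N = 80 ∧ y = 9)))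

def ckEy (y : ℤ) (H : ℕ) : Bool :=
  (excI ++ excII).all fun P => (List.range H).all fun h => Nat.beq h 0 || ckE P.2.1 P.2.2 y h

theorem ckE_one : ((List.range 200).all fun u => Nat.ble u 1 || (ckEy (u : ℤ) 2 && ckEy (-(u : ℤ)) 2)) = true := by
  decide +kernel

theorem ckE_two : ((List.range 40).all fun u => Nat.ble u 1 || (ckEy (u : ℤ) 9 && ckEy (-(u : ℤ)) 9)) = true := by
  decide +kernel

theorem ckE_of {y : ℤ} {U H h : ℕ}
    (hc : ((List.range U).all fun u => Nat.ble u 1 || (ckEy (u : ℤ) H && ckEy (-(u : ℤ)) H)) = true)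
    (hy : 2 ≤ |y|) (hyU : |y| < U) (hh : 1 ≤ h) (hhH : h < H) {P : ℤ × ℤ × ℤ} (hP : P ∈ excI ++ excII) :
    ckE P.2.1 P.2.2 y h = true := by
  have h0 : (y.natAbs : ℤ) = |y| := (Int.abs_eq_natAbs y).symm
  have h3 := List.all_eq_true.1 hc y.natAbs (List.mem_range.2 (by omega))
  rw [Bool.or_eq_true, Bool.and_eq_true] at h3
  have h4 : ckEy y H = true := by
    rcases h3 with h3 | ⟨h3, h4⟩
    · have := Nat.le_of_ble_eq_true h3
      omega
    · rcases abs_cases y with ⟨h1, h2⟩ | ⟨h1, h2⟩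
      · rwa [show ((y.natAbs : ℕ) : ℤ) = y by omega] at h3
      · rwa [show -((y.natAbs : ℕ) : ℤ) = y by omega] at h4
  have h5 := List.all_eq_true.1 (List.all_eq_true.1 h4 P hP) h (List.mem_range.2 hhH)
  rw [Bool.or_eq_true] at h5
  rcases h5 with h5 | h5
  · have : h = 0 := by simpa using h5
    omega
  · exact h5

theorem exc_T_le {P : ℤ × ℤ × ℤ} (hP : P ∈ excI ++ excII) : P.2.1 ≤ 39331 := by
  revert P
  decide

section

variable {y T N : ℤ} {d h : ℕ} (hy : 2 ≤ |y|) (hd : (d : ℤ) ∣ y - 1) (hdo : d % 2 = 1) (hh : 1 ≤ h)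
  (h1 : h = 1 → d = 1) (hT : (y - 1) * d * T = y * (y ^ h) ^ 2 - 1)
  (hN : (y - 1) * d * N = (y * y ^ h - 1) * (y ^ h - 1))
include hy hd hdo hh h1 hT hN

/-- **the exceptional pairs** -/
theorem exc_cases {x : ℤ} (hT0 : 0 < T) (hP : (x, T, N) ∈ excI ++ excII) :
    h = 1 ∧ ((T = 13 ∧ N = 8 ∧ y = 3) ∨ (T = 91 ∧ N = 80 ∧ y = 9)) := by
  have hTle : T ≤ 39331 := exc_T_le hP
  have hdle := d_le hy hd hdo hh
  have hcross : T * ((y * y ^ h - 1) * (y ^ h - 1)) = N * (y * (y ^ h) ^ 2 - 1) := by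
    rw [← hN, ← hT]; ring
  -- the size of `y ^ (2 h + 1)`
  have hsz : |y| ^ (2 * h + 1) ≤ |y - 1| * d * T + 1 := by
    have e : |y| ^ (2 * h + 1) = |y * (y ^ h) ^ 2| := by
      rw [abs_mul, abs_pow, abs_pow, ← pow_mul, ← pow_succ', mul_comm h 2]
    have e2 : |(y - 1) * d * T| = |y - 1| * d * T := by
      rw [abs_mul, abs_mul, abs_of_pos hT0, Nat.abs_cast]
    rw [e, ← e2, hT]
    have := abs_sub_abs_le_abs_sub (y * (y ^ h) ^ 2) 1
    simp only [abs_one] at this
    omega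
  have hy1 : |y - 1| ≤ |y| + 1 := by
    have := abs_sub y 1
    simpa using this
  have hfin : ckE T N y h = true → h = 1 ∧ ((T = 13 ∧ N = 8 ∧ y = 3) ∨ (T = 91 ∧ N = 80 ∧ y = 9)) := by
    intro hc
    rw [ckE, Bool.or_eq_true, Bool.and_eq_true, Bool.or_eq_true, Bool.or_eq_true] at hc
    rcases hc with hc | ⟨hc1, (hc | hc) | hc⟩
    · simp [hcross] at hc
    · exact ⟨by simpa using hc1, Or.inl (by simpa using hc)⟩
    · exfalso
      have hh1 : h = 1 := by simpa using hc1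
      obtain ⟨rfl, rfl, rfl⟩ : T = 19 ∧ N = 21 ∧ y = -8 := by simpa using hc
      rw [h1 hh1, hh1] at hT
      norm_num at hT
    · exact ⟨by simpa using hc1, Or.inr (by simpa using hc)⟩
  obtain ⟨u, hu⟩ : ∃ u : ℤ, u = |y| := ⟨_, rfl⟩
  rw [← hu] at hsz hy1 hdle
  have hu2 : 2 ≤ u := by omega
  rcases Nat.lt_or_ge h 2 with h2 | h2
  · have hh1 : h = 1 := by omega
    have hd1 := h1 hh1
    refine hfin (ckE_of (P := (x, T, N)) ckE_one hy ?_ hh (by omega) hP)
    rw [← hu]
    by_contra hcon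
    push Not at hcon
    rw [hh1, hd1] at hsz
    have h3 : |y - 1| * (1 : ℕ) * T ≤ (u + 1) * 39331 := by
      push_cast
      rw [mul_one]
      exact mul_le_mul hy1 hTle hT0.le (by omega)
    have h4 : u ^ (2 * 1 + 1) = u * u * u := by ring
    rw [h4] at hsz
    push_cast at hcon
    nlinarith [mul_nonneg (by omega : (0:ℤ) ≤ u) (by omega : (0:ℤ) ≤ u)]
  · have h3 : |y - 1| * d * T ≤ (u + 1) * (u + 1) * 39331 := by
      refine mul_le_mul (mul_le_mul hy1 hdle (by positivity) (by omega)) hTle hT0.le (by positivity)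
    have hu40 : u < 40 := by
      by_contra hcon
      push Not at hcon
      have h4 : u ^ 5 ≤ u ^ (2 * h + 1) := pow_le_pow_right₀ (by omega) (by omega)
      have h5 : u ^ 5 = u * u * (u * u * u) := by ring
      have h6 : (64000 : ℤ) ≤ u * u * u := by
        calc (64000 : ℤ) = 40 * 40 * 40 := by norm_num
          _ ≤ u * u * u := by gcongr
      have h7 : u * u * 64000 ≤ u * u * (u * u * u) := mul_le_mul_of_nonneg_left h6 (by positivity)
      nlinarith
    have hh9 : h < 9 := by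
      by_contra hcon
      push Not at hcon
      have h4 : u ^ 19 ≤ u ^ (2 * h + 1) := pow_le_pow_right₀ (by omega) (by omega)
      have h5 : u ^ 19 = u * u * u ^ 17 := by ring
      have h6 : (2 : ℤ) ^ 17 ≤ u ^ 17 := pow_le_pow_left₀ (by norm_num) hu2 17
      have h7 : u * u * 2 ^ 17 ≤ u * u * u ^ 17 := mul_le_mul_of_nonneg_left h6 (by positivity)
      nlinarith
    exact hfin (ckE_of (P := (x, T, N)) ckE_two hy (by rw [← hu]; exact_mod_cast hu40) hh hh9 hP)

omit hd hdo h1 in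
/-- **`T - N` does not divide `T`** -/
theorem no_dvd {K : ℤ} (h0 : 0 < T - N) (hK : T = (T - N) * K) (hd1 : 1 ≤ d) : False := by
  obtain ⟨X, hX⟩ : ∃ X, X = y ^ h := ⟨_, rfl⟩
  rw [← hX] at hT hN
  have hyX : y ∣ X := by rw [hX]; exact dvd_pow_self y (by omega)
  obtain ⟨V, hV⟩ : ∃ V, V = (y + 1) * X - 2 := ⟨_, rfl⟩
  have e1 : (y - 1) * d * (T - N) = V := by rw [hV]; linear_combination hT - hN
  have e2 : V * K = y * X ^ 2 - 1 := by
    rw [← hT, ← e1]
    linear_combination (-(y - 1) * d) * hK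
  have e3 : V * (y * V + 4 * y - K * (y + 1) ^ 2) = (y - 1) ^ 2 := by
    have : V * K * (y + 1) ^ 2 = (y * X ^ 2 - 1) * (y + 1) ^ 2 := by rw [e2]
    rw [hV] at this ⊢
    linear_combination -this
  have hdvd : V ∣ (y - 1) ^ 2 := ⟨_, e3.symm⟩
  have hne : (y - 1) ^ 2 ≠ 0 := by
    have : y - 1 ≠ 0 := by
      intro h2
      have : y = 1 := by omega
      rw [this] at hy
      norm_num at hy
    positivity
  have hle : |V| ≤ (y - 1) ^ 2 := by
    have := Int.le_of_dvd (lt_of_le_of_ne (sq_nonneg _) hne.symm) ((abs_dvd V _).2 hdvd)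
    exact this
  have hdZ : (1 : ℤ) ≤ d := by exact_mod_cast hd1
  rcases abs_cases y with ⟨a1, a2⟩ | ⟨a1, a2⟩
  · -- `y ≥ 2`
    have hy2 : 2 ≤ y := by omega
    have hXy : y ≤ X := by rw [hX]; exact le_self_pow₀ (by omega) (by omega)
    have := (le_abs_self V).trans hle
    rw [hV] at this
    nlinarith
  · -- `y ≤ -2`
    have hy2 : y ≤ -2 := by omega
    have hVneg : V < 0 := by
      rw [← e1]
      have : (y - 1) * d < 0 := mul_neg_of_neg_of_pos (by omega) (by omega)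
      exact mul_neg_of_neg_of_pos this h0
    rcases Nat.even_or_odd h with he | ho
    · have hXy : y ^ 2 ≤ X := by
        obtain ⟨k, rfl⟩ := he
        have hk : 1 ≤ k := by omega
        rw [hX, ← two_mul, pow_mul]
        exact le_self_pow₀ (by nlinarith) (by omega)
      have h5 := (neg_le_abs V).trans hle
      rw [hV] at h5
      obtain ⟨u, rfl⟩ : ∃ u, y = -u := ⟨-y, by omega⟩
      have hu2 : 2 ≤ u := by omega
      rcases (by omega : u = 2 ∨ 3 ≤ u) with rfl | hu3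
      · obtain ⟨c, hc⟩ := hyX
        norm_num at h5 hXy hV hdvd
        have hX4 : X = 4 ∨ X = 6 := by omega
        rcases hX4 with h6 | h6
        · rw [h6] at hV
          rw [hV] at hdvd
          norm_num at hdvd
        · rw [h6] at hV
          rw [hV] at hdvd
          norm_num at hdvd
      · nlinarith
    · have hXn : X ≤ y := by
        obtain ⟨k, rfl⟩ := ho
        rw [hX, pow_succ]
        have h7 : 1 ≤ y ^ (2 * k) := by
          rw [pow_mul]
          exact one_le_pow₀ (by nlinarith)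
        nlinarith
      rw [hV] at hVneg
      nlinarith

end

end Cfsg.Agent.R2.Spec.X3.PL
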