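import Mathlib

/-!
# Packet P-L of box X3 (S3435): the quadratic equations (helper4)

`D = (y - 1) d`, `D T = y X² - 1`, `D (T - N) = (y + 1) X - 2`; each outcome of the pair lemma gives a quadratic
equation for `X`; here the nonexistence of solutions for `|y| ≥ 60`.
-/

set_option autoImplicit false

namespace Cfsg.Agent.R2.Spec.X3.PL

theorem no_root {α β γ X W b g : ℤ} (hW : 0 < W) (hb : 0 ≤ b) (hg : 0 ≤ g) (h1 : W ≤ 4 * |α|) (h2 : |β| ≤ b * W)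
    (h3 : |γ| ≤ g * W * |X|) (hX : 4 * (b + g) < |X|) : α * X ^ 2 + β * X + γ ≠ 0 := by
  intro h
  have hX0 : 0 ≤ |X| := abs_nonneg _
  have hXp : 0 < |X| := by omega
  have e1 : |α| * |X| ^ 2 = |β * X + γ| := by
    rw [← abs_pow, ← abs_mul, show α * X ^ 2 = -(β * X + γ) by linear_combination h, abs_neg]
  have e2 : |β * X + γ| ≤ b * W * |X| + g * W * |X| := by
    refine (abs_add_le _ _).trans (add_le_add ?_ h3)
    rw [abs_mul]
    exact mul_le_mul_of_nonneg_right h2 hX0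
  have e3 : W * |X| ^ 2 ≤ 4 * (|α| * |X| ^ 2) := by
    have := mul_le_mul_of_nonneg_right h1 (sq_nonneg |X|)
    linarith
  have e4 : W * |X| * |X| ≤ W * |X| * (4 * (b + g)) := by
    rw [e1] at e3
    nlinarith
  have := le_of_mul_le_mul_left e4 (mul_pos hW hXp)
  omega

/-- the two signs -/
theorem abs_cases' {y : ℤ} (h : 60 ≤ |y|) : ∃ t : ℤ, 0 ≤ t ∧ |y| = 60 + t ∧ (y = 60 + t ∨ y = -(60 + t)) := by
  refine ⟨|y| - 60, by omega, by omega, ?_⟩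
  rcases abs_cases y with ⟨h1, h2⟩ | ⟨h1, h2⟩ <;> omega

section

variable {y X : ℤ} (hy : 60 ≤ |y|) (hX : |y| ≤ |X|)
include hy hX

/-- the general form, leading coefficient `k (y + 1)² - c y (y - 1)` -/
theorem gen {k c w β γ b g : ℤ} (hw : 1 ≤ w) (hb : 0 ≤ b) (hg : 0 ≤ g) (hbg : 4 * (b + g) < 60)
    (hkc : (w = c ∧ 3 ≤ c ∧ k = 1) ∨ (w = c ∧ 3 ≤ c ∧ k = 2) ∨ (w = c ∧ 5 ≤ c ∧ k = 3) ∨ (c = 4 * w ∧ k = 1) ∨
      (c = 4 * w ∧ k = 3))
    (h2 : |β| ≤ b * (w * y ^ 2)) (h3 : |γ| ≤ g * (w * y ^ 2) * |y|) :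
    (k * (y + 1) ^ 2 - c * (y - 1) * y) * X ^ 2 + β * X + γ ≠ 0 := by
  have hy2 : 0 < y ^ 2 := by
    have : y ≠ 0 := by
      rintro rfl
      norm_num at hy
    positivity
  have hW : 0 < w * y ^ 2 := mul_pos (by omega) hy2
  refine no_root hW hb hg ?_ h2 (h3.trans ?_) (by omega)
  · have key : w * y ^ 2 ≤ 4 * (-(k * (y + 1) ^ 2 - c * (y - 1) * y)) := by
      obtain ⟨t, ht, -, hyt⟩ := abs_cases' hy
      rcases hkc with ⟨rfl, h4, rfl⟩ | ⟨rfl, h4, rfl⟩ | ⟨rfl, h4, rfl⟩ | ⟨rfl, rfl⟩ | ⟨rfl, rfl⟩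
      · obtain ⟨s, rfl⟩ : ∃ s, w = 3 + s := ⟨w - 3, by omega⟩
        have hs : 0 ≤ s := by omega
        rcases hyt with rfl | rfl <;> nlinarith [mul_nonneg hs ht, mul_nonneg hs (sq_nonneg t), mul_nonneg ht ht]
      · obtain ⟨s, rfl⟩ : ∃ s, w = 3 + s := ⟨w - 3, by omega⟩
        have hs : 0 ≤ s := by omega
        rcases hyt with rfl | rfl <;> nlinarith [mul_nonneg hs ht, mul_nonneg hs (sq_nonneg t), mul_nonneg ht ht]
      · obtain ⟨s, rfl⟩ : ∃ s, w = 5 + s := ⟨w - 5, by omega⟩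
        have hs : 0 ≤ s := by omega
        rcases hyt with rfl | rfl <;> nlinarith [mul_nonneg hs ht, mul_nonneg hs (sq_nonneg t), mul_nonneg ht ht]
      · obtain ⟨s, rfl⟩ : ∃ s, w = 1 + s := ⟨w - 1, by omega⟩
        have hs : 0 ≤ s := by omega
        rcases hyt with rfl | rfl <;> nlinarith [mul_nonneg hs ht, mul_nonneg hs (sq_nonneg t), mul_nonneg ht ht]
      · obtain ⟨s, rfl⟩ : ∃ s, w = 1 + s := ⟨w - 1, by omega⟩
        have hs : 0 ≤ s := by omega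
        rcases hyt with rfl | rfl <;> nlinarith [mul_nonneg hs ht, mul_nonneg hs (sq_nonneg t), mul_nonneg ht ht]
    refine key.trans (mul_le_mul_of_nonneg_left ?_ (by norm_num))
    exact neg_le_abs _
  · exact mul_le_mul_of_nonneg_left hX (by positivity)

omit hy hX in
/-- bounds of the linear coefficients -/
theorem bd_one {m n m' n' c : ℤ} (hm : |m| ≤ m') (hn : |n| ≤ n') (hc : 0 ≤ c) :
    |(y + 1) * (m + n * (c * (y - 1)))| ≤ (|y| + 1) * (m' + n' * (c * (|y| + 1))) := by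
  have h1 : |y + 1| ≤ |y| + 1 := by
    have := abs_add_le y 1
    simpa using this
  have h2 : |y - 1| ≤ |y| + 1 := by
    have := abs_sub y 1
    simpa using this
  have hn0 : 0 ≤ n' := (abs_nonneg _).trans hn
  rw [abs_mul]
  refine mul_le_mul h1 ?_ (abs_nonneg _) (by positivity)
  refine (abs_add_le _ _).trans (add_le_add hm ?_)
  rw [abs_mul, abs_mul, abs_of_nonneg hc]
  gcongr

omit hy hX in
/-- bounds of the constant coefficients -/
theorem bd_two {l m n l' m' n' c : ℤ} (hl : |l| ≤ l') (hm : |m| ≤ m') (hn : |n| ≤ n') (hc : 0 ≤ c) :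
    |l * (c * (y - 1)) ^ 2 + m * (c * (y - 1)) + n| ≤ l' * (c * (|y| + 1)) ^ 2 + m' * (c * (|y| + 1)) + n' := by
  have h2 : |y - 1| ≤ |y| + 1 := by
    have := abs_sub y 1
    simpa using this
  have h3 : |c * (y - 1)| ≤ c * (|y| + 1) := by
    rw [abs_mul, abs_of_nonneg hc]
    exact mul_le_mul_of_nonneg_left h2 hc
  have hl0 : 0 ≤ l' := (abs_nonneg _).trans hl
  have hm0 : 0 ≤ m' := (abs_nonneg _).trans hm
  refine (abs_add_three _ _ _).trans (add_le_add (add_le_add ?_ ?_) hn)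
  · rw [abs_mul, abs_pow]
    gcongr
  · rw [abs_mul]
    gcongr

theorem big_S {c : ℤ} (hc : 3 ≤ c) (hc' : c ≤ 9 * (|y| + 1)) :
    (2 * (y + 1) ^ 2 - c * (y - 1) * y) * X ^ 2 + -((y + 1) * (8 + 2 * (c * (y - 1)))) * X +
      (1 * (c * (y - 1)) ^ 2 + 5 * (c * (y - 1)) + 8) ≠ 0 := by
  obtain ⟨t, ht, hu, -⟩ := abs_cases' hy
  have hyy : y ^ 2 = |y| ^ 2 := (sq_abs y).symm
  refine gen hy hX (w := c) (b := 3) (g := 10) (by omega) (by norm_num) (by norm_num) (by norm_num)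
    (Or.inr (Or.inl ⟨rfl, hc, rfl⟩)) ?_ ?_
  · rw [abs_neg]
    refine (bd_one (m' := 8) (n' := 2) (by norm_num) (by norm_num) (by omega)).trans ?_
    obtain ⟨s, rfl⟩ : ∃ s, c = 3 + s := ⟨c - 3, by omega⟩
    have hs : 0 ≤ s := by omega
    rw [hyy, hu]
    nlinarith [mul_nonneg hs ht, mul_nonneg hs (sq_nonneg t)]
  · refine (bd_two (l' := 1) (m' := 5) (n' := 8) (by norm_num) (by norm_num) (by norm_num) (by omega)).trans ?_
    have h1 : 1 * (c * (|y| + 1)) ^ 2 ≤ c * (9 * (|y| + 1)) * (|y| + 1) ^ 2 := by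
      have : c * c ≤ c * (9 * (|y| + 1)) := mul_le_mul_of_nonneg_left hc' (by omega)
      nlinarith [sq_nonneg (|y| + 1)]
    obtain ⟨s, rfl⟩ : ∃ s, c = 3 + s := ⟨c - 3, by omega⟩
    have hs : 0 ≤ s := by omega
    rw [hyy, hu] at *
    nlinarith [mul_nonneg hs ht, mul_nonneg hs (sq_nonneg t), mul_nonneg hs (mul_nonneg ht (sq_nonneg t)), mul_nonneg ht (sq_nonneg t)]

theorem big_II1 {d : ℤ} (hd : 3 ≤ d) (hd' : d ≤ |y| + 1) :
    (1 * (y + 1) ^ 2 - d * (y - 1) * y) * X ^ 2 + ((y + 1) * ((-4) + (-3) * (d * (y - 1)))) * X +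
      (3 * (d * (y - 1)) ^ 2 + 7 * (d * (y - 1)) + 4) ≠ 0 := by
  obtain ⟨t, ht, hu, -⟩ := abs_cases' hy
  have hyy : y ^ 2 = |y| ^ 2 := (sq_abs y).symm
  refine gen hy hX (w := d) (b := 4) (g := 4) (by omega) (by norm_num) (by norm_num) (by norm_num)
    (Or.inl ⟨rfl, hd, rfl⟩) ?_ ?_
  · refine (bd_one (m' := 4) (n' := 3) (by norm_num) (by norm_num) (by omega)).trans ?_
    obtain ⟨s, rfl⟩ : ∃ s, d = 3 + s := ⟨d - 3, by omega⟩
    have hs : 0 ≤ s := by omega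
    rw [hyy, hu]
    nlinarith [mul_nonneg hs ht, mul_nonneg hs (sq_nonneg t)]
  · refine (bd_two (l' := 3) (m' := 7) (n' := 4) (by norm_num) (by norm_num) (by norm_num) (by omega)).trans ?_
    have h1 : 3 * (d * (|y| + 1)) ^ 2 ≤ 3 * (d * (|y| + 1) * (|y| + 1) ^ 2) := by
      have : d * d ≤ d * (|y| + 1) := mul_le_mul_of_nonneg_left hd' (by omega)
      nlinarith [sq_nonneg (|y| + 1)]
    obtain ⟨s, rfl⟩ : ∃ s, d = 3 + s := ⟨d - 3, by omega⟩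
    have hs : 0 ≤ s := by omega
    rw [hyy, hu] at *
    nlinarith [mul_nonneg hs ht, mul_nonneg hs (sq_nonneg t), mul_nonneg hs (mul_nonneg ht (sq_nonneg t)), mul_nonneg ht (sq_nonneg t)]

theorem big_II1' {d : ℤ} (hd : 5 ≤ d) (hd' : d ≤ |y| + 1) :
    (3 * (y + 1) ^ 2 - d * (y - 1) * y) * X ^ 2 + ((y + 1) * ((-12) + (-3) * (d * (y - 1)))) * X +
      (1 * (d * (y - 1)) ^ 2 + 7 * (d * (y - 1)) + 12) ≠ 0 := by
  obtain ⟨t, ht, hu, -⟩ := abs_cases' hy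
  have hyy : y ^ 2 = |y| ^ 2 := (sq_abs y).symm
  refine gen hy hX (w := d) (b := 4) (g := 2) (by omega) (by norm_num) (by norm_num) (by norm_num)
    (Or.inr (Or.inr (Or.inl ⟨rfl, hd, rfl⟩))) ?_ ?_
  · refine (bd_one (m' := 12) (n' := 3) (by norm_num) (by norm_num) (by omega)).trans ?_
    obtain ⟨s, rfl⟩ : ∃ s, d = 5 + s := ⟨d - 5, by omega⟩
    have hs : 0 ≤ s := by omega
    rw [hyy, hu]
    nlinarith [mul_nonneg hs ht, mul_nonneg hs (sq_nonneg t)]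
  · refine (bd_two (l' := 1) (m' := 7) (n' := 12) (by norm_num) (by norm_num) (by norm_num) (by omega)).trans ?_
    have h1 : 1 * (d * (|y| + 1)) ^ 2 ≤ 1 * (d * (|y| + 1) * (|y| + 1) ^ 2) := by
      have : d * d ≤ d * (|y| + 1) := mul_le_mul_of_nonneg_left hd' (by omega)
      nlinarith [sq_nonneg (|y| + 1)]
    obtain ⟨s, rfl⟩ : ∃ s, d = 5 + s := ⟨d - 5, by omega⟩
    have hs : 0 ≤ s := by omega
    rw [hyy, hu] at *
    nlinarith [mul_nonneg hs ht, mul_nonneg hs (sq_nonneg t), mul_nonneg hs (mul_nonneg ht (sq_nonneg t)), mul_nonneg ht (sq_nonneg t)]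

theorem big_II2 {d : ℤ} (hd : 1 ≤ d) (hd' : d ≤ |y| + 1) :
    (1 * (y + 1) ^ 2 - (4 * d) * (y - 1) * y) * X ^ 2 + ((y + 1) * ((-4) + 0 * (d * (y - 1)))) * X +
      (3 * (d * (y - 1)) ^ 2 + 4 * (d * (y - 1)) + 4) ≠ 0 := by
  obtain ⟨t, ht, hu, -⟩ := abs_cases' hy
  have hyy : y ^ 2 = |y| ^ 2 := (sq_abs y).symm
  refine gen hy hX (w := d) (b := 1) (g := 4) (by omega) (by norm_num) (by norm_num) (by norm_num)
    (Or.inr (Or.inr (Or.inr (Or.inl ⟨rfl, rfl⟩)))) ?_ ?_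
  · refine (bd_one (m' := 4) (n' := 0) (by norm_num) (by norm_num) (by omega)).trans ?_
    obtain ⟨s, rfl⟩ : ∃ s, d = 1 + s := ⟨d - 1, by omega⟩
    have hs : 0 ≤ s := by omega
    rw [hyy, hu]
    nlinarith [mul_nonneg hs ht, mul_nonneg hs (sq_nonneg t)]
  · refine (bd_two (l' := 3) (m' := 4) (n' := 4) (by norm_num) (by norm_num) (by norm_num) (by omega)).trans ?_
    have h1 : 3 * (d * (|y| + 1)) ^ 2 ≤ 3 * (d * (|y| + 1) * (|y| + 1) ^ 2) := by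
      have : d * d ≤ d * (|y| + 1) := mul_le_mul_of_nonneg_left hd' (by omega)
      nlinarith [sq_nonneg (|y| + 1)]
    obtain ⟨s, rfl⟩ : ∃ s, d = 1 + s := ⟨d - 1, by omega⟩
    have hs : 0 ≤ s := by omega
    rw [hyy, hu] at *
    nlinarith [mul_nonneg hs ht, mul_nonneg hs (sq_nonneg t), mul_nonneg hs (mul_nonneg ht (sq_nonneg t)), mul_nonneg ht (sq_nonneg t)]

theorem big_II2' {d : ℤ} (hd : 1 ≤ d) (hd' : d ≤ |y| + 1) :
    (3 * (y + 1) ^ 2 - (4 * d) * (y - 1) * y) * X ^ 2 + ((y + 1) * ((-12) + 0 * (d * (y - 1)))) * X +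
      (1 * (d * (y - 1)) ^ 2 + 4 * (d * (y - 1)) + 12) ≠ 0 := by
  obtain ⟨t, ht, hu, -⟩ := abs_cases' hy
  have hyy : y ^ 2 = |y| ^ 2 := (sq_abs y).symm
  refine gen hy hX (w := d) (b := 1) (g := 2) (by omega) (by norm_num) (by norm_num) (by norm_num)
    (Or.inr (Or.inr (Or.inr (Or.inr ⟨rfl, rfl⟩)))) ?_ ?_
  · refine (bd_one (m' := 12) (n' := 0) (by norm_num) (by norm_num) (by omega)).trans ?_
    obtain ⟨s, rfl⟩ : ∃ s, d = 1 + s := ⟨d - 1, by omega⟩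
    have hs : 0 ≤ s := by omega
    rw [hyy, hu]
    nlinarith [mul_nonneg hs ht, mul_nonneg hs (sq_nonneg t)]
  · refine (bd_two (l' := 1) (m' := 4) (n' := 12) (by norm_num) (by norm_num) (by norm_num) (by omega)).trans ?_
    have h1 : 1 * (d * (|y| + 1)) ^ 2 ≤ 1 * (d * (|y| + 1) * (|y| + 1) ^ 2) := by
      have : d * d ≤ d * (|y| + 1) := mul_le_mul_of_nonneg_left hd' (by omega)
      nlinarith [sq_nonneg (|y| + 1)]
    obtain ⟨s, rfl⟩ : ∃ s, d = 1 + s := ⟨d - 1, by omega⟩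
    have hs : 0 ≤ s := by omega
    rw [hyy, hu] at *
    nlinarith [mul_nonneg hs ht, mul_nonneg hs (sq_nonneg t), mul_nonneg hs (mul_nonneg ht (sq_nonneg t)), mul_nonneg ht (sq_nonneg t)]

theorem big_II4 {d : ℤ} (hd : 3 ≤ d) (hd' : d ≤ |y| + 1) :
    (1 * (y + 1) ^ 2 - d * (y - 1) * y) * X ^ 2 + ((y + 1) * ((-4) + 1 * (d * (y - 1)))) * X +
      (1 * (d * (y - 1)) ^ 2 + (-1) * (d * (y - 1)) + 4) ≠ 0 := by
  obtain ⟨t, ht, hu, -⟩ := abs_cases' hy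
  have hyy : y ^ 2 = |y| ^ 2 := (sq_abs y).symm
  refine gen hy hX (w := d) (b := 2) (g := 2) (by omega) (by norm_num) (by norm_num) (by norm_num)
    (Or.inl ⟨rfl, hd, rfl⟩) ?_ ?_
  · refine (bd_one (m' := 4) (n' := 1) (by norm_num) (by norm_num) (by omega)).trans ?_
    obtain ⟨s, rfl⟩ : ∃ s, d = 3 + s := ⟨d - 3, by omega⟩
    have hs : 0 ≤ s := by omega
    rw [hyy, hu]
    nlinarith [mul_nonneg hs ht, mul_nonneg hs (sq_nonneg t)]
  · refine (bd_two (l' := 1) (m' := 1) (n' := 4) (by norm_num) (by norm_num) (by norm_num) (by omega)).trans ?_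
    have h1 : 1 * (d * (|y| + 1)) ^ 2 ≤ 1 * (d * (|y| + 1) * (|y| + 1) ^ 2) := by
      have : d * d ≤ d * (|y| + 1) := mul_le_mul_of_nonneg_left hd' (by omega)
      nlinarith [sq_nonneg (|y| + 1)]
    obtain ⟨s, rfl⟩ : ∃ s, d = 3 + s := ⟨d - 3, by omega⟩
    have hs : 0 ≤ s := by omega
    rw [hyy, hu] at *
    nlinarith [mul_nonneg hs ht, mul_nonneg hs (sq_nonneg t), mul_nonneg hs (mul_nonneg ht (sq_nonneg t)), mul_nonneg ht (sq_nonneg t)]

end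

end Cfsg.Agent.R2.Spec.X3.PL
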