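import Cfsg.Agent.R2.Spec.X3.PL.Quad

/-!
# Packet P-L of box X3 (S3435): the quadratic equations, `|y| < 60` (helper4)
-/

set_option autoImplicit false

namespace Cfsg.Agent.R2.Spec.X3.PL

/-- no root among `X, X y, X y², …` (of absolute value at most `|β| + |γ|`) -/
def lp (y α β γ : ℤ) (B : ℕ) : ℕ → ℤ → Bool
  | 0, X => Nat.blt B X.natAbs
  | n + 1, X => Nat.blt B X.natAbs || (!(decide ((α * X + β) * X + γ = 0)) && lp y α β γ B n (X * y))

theorem lp_spec {y α β γ : ℤ} {B : ℕ} (hy : 1 ≤ y.natAbs) : ∀ (n : ℕ) (X : ℤ), lp y α β γ B n X = true →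
    ∀ j : ℕ, (X * y ^ j).natAbs ≤ B → α * (X * y ^ j) ^ 2 + β * (X * y ^ j) + γ ≠ 0 := by
  have key : ∀ (X : ℤ) (j : ℕ), X.natAbs ≤ (X * y ^ j).natAbs := by
    intro X j
    rw [Int.natAbs_mul, Int.natAbs_pow]
    exact Nat.le_mul_of_pos_right _ (Nat.one_le_pow _ _ hy)
  intro n
  induction n with
  | zero =>
    intro X h j hj
    have h1 : B < X.natAbs := by simpa [lp, Nat.blt] using h
    have := key X j
    omega
  | succ n ih =>
    intro X h j hj
    rw [lp, Bool.or_eq_true, Bool.and_eq_true] at h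
    rcases h with h | ⟨h1, h2⟩
    · have h1 : B < X.natAbs := by simpa [Nat.blt] using h
      have := key X j
      omega
    · rcases Nat.eq_zero_or_pos j with rfl | hj0
      · intro h3
        rw [pow_zero, mul_one] at h3
        have h4 : (α * X + β) * X + γ = 0 := by linear_combination h3
        simp [h4] at h1
      · obtain ⟨k, rfl⟩ : ∃ k, j = k + 1 := ⟨j - 1, by omega⟩
        have e : X * y ^ (k + 1) = X * y * y ^ k := by ring
        rw [e] at hj ⊢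
        exact ih _ h2 k hj

theorem le_of_root {α β γ X : ℤ} (h : α * X ^ 2 + β * X + γ = 0) (hne : ¬ (α = 0 ∧ β = 0)) (hX : X ≠ 0) :
    X.natAbs ≤ β.natAbs + γ.natAbs := by
  have hX1 : 1 ≤ |X| := Int.one_le_abs hX
  suffices hs : |X| ≤ |β| + |γ| by
    rw [Int.abs_eq_natAbs, Int.abs_eq_natAbs, Int.abs_eq_natAbs] at hs
    exact_mod_cast hs
  by_cases hα : α = 0
  · have hβ : β ≠ 0 := fun h1 => hne ⟨hα, h1⟩
    have hβ1 : 1 ≤ |β| := Int.one_le_abs hβ
    have e : β * X = -γ := by rw [hα] at h; linear_combination h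
    have e2 : |β| * |X| = |γ| := by rw [← abs_mul, e, abs_neg]
    nlinarith [abs_nonneg γ]
  · have hα1 : 1 ≤ |α| := Int.one_le_abs hα
    have e1 : |α| * |X| ^ 2 = |β * X + γ| := by
      rw [← abs_pow, ← abs_mul, show α * X ^ 2 = -(β * X + γ) by linear_combination h, abs_neg]
    have e2 : |β * X + γ| ≤ |β| * |X| + |γ| := by
      refine (abs_add_le _ _).trans ?_
      rw [abs_mul]
    by_contra hcon
    push Not at hcon
    have h3 : (|β| + |γ| + 1) * |X| ≤ |X| * |X| := mul_le_mul_of_nonneg_right (by omega) (by omega)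
    have h4 : |X| * |X| ≤ |α| * |X| ^ 2 := by nlinarith [sq_nonneg |X|]
    nlinarith [abs_nonneg γ, abs_nonneg β]

/-- check of one quadratic -/
def ck (y α β γ X0 : ℤ) : Bool :=
  !(decide (α = 0 ∧ β = 0)) && lp y α β γ (β.natAbs + γ.natAbs) 40 X0

theorem ck_spec {y α β γ X0 : ℤ} (hy : 1 ≤ y.natAbs) (hX0 : X0 ≠ 0) (h : ck y α β γ X0 = true) (j : ℕ) :
    α * (X0 * y ^ j) ^ 2 + β * (X0 * y ^ j) + γ ≠ 0 := by
  intro h0
  rw [ck, Bool.and_eq_true] at h
  obtain ⟨h1, h2⟩ := h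
  have hne : ¬ (α = 0 ∧ β = 0) := by
    rintro ⟨h3, h4⟩
    simp [h3, h4] at h1
  have hX : X0 * y ^ j ≠ 0 := mul_ne_zero hX0 (pow_ne_zero _ (by rintro rfl; simp at hy))
  exact lp_spec hy _ _ h2 j (le_of_root h0 hne hX) h0

/-- the first value of `X` -/
def X0 (y : ℤ) (d : ℕ) (b : Bool) : ℤ := if d = 1 && !b then y else y * y

/-- the six families -/
def ckS (y : ℤ) (d : ℕ) (a : ℕ) : Bool :=
  let c : ℤ := a * d
  let D : ℤ := c * (y - 1)
  ck y (2 * (y + 1) ^ 2 - D * y) (-((y + 1) * (8 + 2 * D))) (1 * D ^ 2 + 5 * D + 8) (X0 y d (decide (y = -2 ∧ a = 3)))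

def ckA (y : ℤ) (d : ℕ) : Bool :=
  let D : ℤ := d * (y - 1)
  ck y (1 * (y + 1) ^ 2 - D * y) ((y + 1) * (-4 + -3 * D)) (3 * D ^ 2 + 7 * D + 4) (X0 y d false)

def ckA' (y : ℤ) (d : ℕ) : Bool :=
  let D : ℤ := d * (y - 1)
  ck y (3 * (y + 1) ^ 2 - D * y) ((y + 1) * (-12 + -3 * D)) (1 * D ^ 2 + 7 * D + 12) (X0 y d false)

def ckB (y : ℤ) (d : ℕ) : Bool :=
  let D : ℤ := d * (y - 1)
  ck y (1 * (y + 1) ^ 2 - 4 * D * y) ((y + 1) * (-4 + 0 * D)) (3 * D ^ 2 + 4 * D + 4) (X0 y d false)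

def ckB' (y : ℤ) (d : ℕ) : Bool :=
  let D : ℤ := d * (y - 1)
  ck y (3 * (y + 1) ^ 2 - 4 * D * y) ((y + 1) * (-12 + 0 * D)) (1 * D ^ 2 + 4 * D + 12) (X0 y d (decide (y = 9)))

def ckC (y : ℤ) (d : ℕ) : Bool :=
  let D : ℤ := d * (y - 1)
  ck y (1 * (y + 1) ^ 2 - D * y) ((y + 1) * (-4 + 1 * D)) (1 * D ^ 2 + -1 * D + 4) (X0 y d false)

def ckAll (y : ℤ) : Bool :=
  (List.range 31).all fun i =>
    let d := 2 * i + 1
    !(decide ((y - 1) % (d : ℤ) = 0)) ||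
      ((Nat.beq d 1 || ckS y d 1) && ckS y d 3 && ckS y d 5 && ckS y d 7 && ckS y d 9 &&
        (Nat.beq d 1 || ckA y d) && (Nat.ble d 3 || ckA' y d) && ckB y d && ckB' y d && (Nat.beq d 1 || ckC y d))

theorem chk_pos : ((List.range 60).all fun u => Nat.ble u 1 || ckAll (u : ℤ)) = true := by decide +kernel
theorem chk_neg : ((List.range 60).all fun u => Nat.ble u 1 || ckAll (-(u : ℤ))) = true := by decide +kernel

theorem ckAll_of {y : ℤ} (hy : 2 ≤ |y|) (hy' : |y| < 60) : ckAll y = true := by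
  have h0 : (y.natAbs : ℤ) = |y| := (Int.abs_eq_natAbs y).symm
  rcases abs_cases y with ⟨h1, h2⟩ | ⟨h1, h2⟩
  · have h3 := List.all_eq_true.1 chk_pos y.natAbs (List.mem_range.2 (by omega))
    rw [Bool.or_eq_true] at h3
    rcases h3 with h3 | h3
    · have := Nat.le_of_ble_eq_true h3
      omega
    · rwa [show ((y.natAbs : ℕ) : ℤ) = y by omega] at h3
  · have h3 := List.all_eq_true.1 chk_neg y.natAbs (List.mem_range.2 (by omega))
    rw [Bool.or_eq_true] at h3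
    rcases h3 with h3 | h3
    · have := Nat.le_of_ble_eq_true h3
      omega
    · rwa [show -((y.natAbs : ℕ) : ℤ) = y by omega] at h3

theorem X0_spec {y : ℤ} {d h : ℕ} {b : Bool} (hh : 1 ≤ h) (h1 : h = 1 → d = 1 ∧ b = false) :
    ∃ j, X0 y d b * y ^ j = y ^ h := by
  unfold X0
  split_ifs with h2
  · exact ⟨h - 1, by rw [← pow_succ', Nat.sub_add_cancel hh]⟩
  · have h3 : 2 ≤ h := by
      by_contra hcon
      obtain ⟨rfl, rfl⟩ := h1 (by omega)
      simp at h2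
    obtain ⟨k, rfl⟩ : ∃ k, h = k + 2 := ⟨h - 2, by omega⟩
    exact ⟨k, by ring⟩

theorem X0_ne {y : ℤ} {d : ℕ} {b : Bool} (hy : y ≠ 0) : X0 y d b ≠ 0 := by
  unfold X0
  split_ifs
  · exact hy
  · exact mul_ne_zero hy hy

section

variable {y : ℤ} {d h : ℕ} (hy : 2 ≤ |y|) (hd : (d : ℤ) ∣ y - 1) (hdo : d % 2 = 1) (hh : 1 ≤ h)
include hy hd hdo hh

theorem d_le : (d : ℤ) ≤ |y| + 1 := by
  have hne : y - 1 ≠ 0 := by
    intro h0
    have : y = 1 := by omega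
    rw [this] at hy
    norm_num at hy
  have h1 := Int.le_of_dvd (abs_pos.2 hne) ((dvd_abs _ _).2 hd)
  have h2 := abs_sub y 1
  simp only [abs_one] at h2
  omega

theorem abs_le_pow : |y| ≤ |y ^ h| := by
  rw [abs_pow]
  exact le_self_pow₀ (by omega) (by omega)

theorem row_of (hy' : |y| < 60) : ((Nat.beq d 1 || ckS y d 1) && ckS y d 3 && ckS y d 5 && ckS y d 7 && ckS y d 9 &&
        (Nat.beq d 1 || ckA y d) && (Nat.ble d 3 || ckA' y d) && ckB y d && ckB' y d &&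
        (Nat.beq d 1 || ckC y d)) = true := by
  have h1 := ckAll_of hy hy'
  have h2 := d_le hy hd hdo hh
  obtain ⟨i, rfl⟩ : ∃ i, d = 2 * i + 1 := ⟨d / 2, by omega⟩
  have h3 := List.all_eq_true.1 h1 i (List.mem_range.2 (by push_cast at h2; omega))
  simp only [Bool.or_eq_true] at h3
  rcases h3 with h3 | h3
  · exfalso
    rw [Int.emod_eq_zero_of_dvd hd] at h3
    simp at h3
  · simpa only [Bool.or_eq_true] using h3

/-- **the family S** -/
theorem quad_S {a : ℕ} (ha : a = 1 ∨ a = 3 ∨ a = 5 ∨ a = 7 ∨ a = 9) (h3 : 3 ≤ a * d) (h1 : h = 1 → d = 1)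
    (hex : ¬ (y = -2 ∧ a = 3 ∧ h = 1)) :
    (2 * (y + 1) ^ 2 - ((a : ℤ) * d) * (y - 1) * y) * (y ^ h) ^ 2 +
      -((y + 1) * (8 + 2 * (((a : ℤ) * d) * (y - 1)))) * y ^ h +
      (1 * (((a : ℤ) * d) * (y - 1)) ^ 2 + 5 * (((a : ℤ) * d) * (y - 1)) + 8) ≠ 0 := by
  rcases lt_or_ge |y| 60 with hy' | hy'
  · have hr := row_of hy hd hdo hh hy'
    simp only [Bool.and_eq_true, Bool.or_eq_true] at hr
    obtain ⟨⟨⟨⟨⟨⟨⟨⟨⟨r1, r3⟩, r5⟩, r7⟩, r9⟩, -⟩, -⟩, -⟩, -⟩, -⟩ := hr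
    have hS : ckS y d a = true := by
      rcases ha with rfl | rfl | rfl | rfl | rfl
      · rcases r1 with r1 | r1
        · have : d = 1 := by simpa using r1
          omega
        · exact r1
      · exact r3
      · exact r5
      · exact r7
      · exact r9
    have hy0 : y ≠ 0 := by rintro rfl; norm_num at hy
    obtain ⟨j, hj⟩ := X0_spec (y := y) (d := d) (b := decide (y = -2 ∧ a = 3)) hh (fun h2 => ⟨h1 h2, by
      rw [decide_eq_false_iff_not]
      exact fun h4 => hex ⟨h4.1, h4.2, h2⟩⟩)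
    have := ck_spec (by omega) (X0_ne hy0) hS j
    rw [hj] at this
    exact this
  · refine big_S hy' (abs_le_pow hy hd hdo hh) (by exact_mod_cast h3) ?_
    have h2 := d_le hy hd hdo hh
    have : (a : ℤ) ≤ 9 := by omega
    nlinarith

/-- **the family A** -/
theorem quad_A (h3 : 3 ≤ d) (h1 : h = 1 → d = 1) :
    (1 * (y + 1) ^ 2 - (d : ℤ) * (y - 1) * y) * (y ^ h) ^ 2 + ((y + 1) * (-4 + -3 * ((d : ℤ) * (y - 1)))) * y ^ h +
      (3 * ((d : ℤ) * (y - 1)) ^ 2 + 7 * ((d : ℤ) * (y - 1)) + 4) ≠ 0 := by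
  rcases lt_or_ge |y| 60 with hy' | hy'
  · have hr := row_of hy hd hdo hh hy'
    simp only [Bool.and_eq_true, Bool.or_eq_true] at hr
    obtain ⟨⟨⟨⟨⟨-, r⟩, -⟩, -⟩, -⟩, -⟩ := hr
    have hS : ckA y d = true := by
      rcases r with r | r
      · have : d = 1 := by simpa using r
        omega
      · exact r
    have hy0 : y ≠ 0 := by rintro rfl; norm_num at hy
    obtain ⟨j, hj⟩ := X0_spec (y := y) (d := d) (b := false) hh (fun h2 => ⟨h1 h2, rfl⟩)
    have := ck_spec (by omega) (X0_ne hy0) hS j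
    rw [hj] at this
    exact this
  · exact big_II1 hy' (abs_le_pow hy hd hdo hh) (by exact_mod_cast h3) (d_le hy hd hdo hh)

/-- **the family A'** -/
theorem quad_A' (h3 : 5 ≤ d) (h1 : h = 1 → d = 1) :
    (3 * (y + 1) ^ 2 - (d : ℤ) * (y - 1) * y) * (y ^ h) ^ 2 + ((y + 1) * (-12 + -3 * ((d : ℤ) * (y - 1)))) * y ^ h +
      (1 * ((d : ℤ) * (y - 1)) ^ 2 + 7 * ((d : ℤ) * (y - 1)) + 12) ≠ 0 := by
  rcases lt_or_ge |y| 60 with hy' | hy'
  · have hr := row_of hy hd hdo hh hy'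
    simp only [Bool.and_eq_true, Bool.or_eq_true] at hr
    obtain ⟨⟨⟨⟨-, r⟩, -⟩, -⟩, -⟩ := hr
    have hS : ckA' y d = true := by
      rcases r with r | r
      · have := Nat.le_of_ble_eq_true r
        omega
      · exact r
    have hy0 : y ≠ 0 := by rintro rfl; norm_num at hy
    obtain ⟨j, hj⟩ := X0_spec (y := y) (d := d) (b := false) hh (fun h2 => ⟨h1 h2, rfl⟩)
    have := ck_spec (by omega) (X0_ne hy0) hS j
    rw [hj] at this
    exact this
  · exact big_II1' hy' (abs_le_pow hy hd hdo hh) (by exact_mod_cast h3) (d_le hy hd hdo hh)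

/-- **the family B** -/
theorem quad_B (h1 : h = 1 → d = 1) :
    (1 * (y + 1) ^ 2 - 4 * (d : ℤ) * (y - 1) * y) * (y ^ h) ^ 2 + ((y + 1) * (-4 + 0 * ((d : ℤ) * (y - 1)))) * y ^ h +
      (3 * ((d : ℤ) * (y - 1)) ^ 2 + 4 * ((d : ℤ) * (y - 1)) + 4) ≠ 0 := by
  rcases lt_or_ge |y| 60 with hy' | hy'
  · have hr := row_of hy hd hdo hh hy'
    simp only [Bool.and_eq_true, Bool.or_eq_true] at hr
    obtain ⟨⟨⟨-, r⟩, -⟩, -⟩ := hr
    have hy0 : y ≠ 0 := by rintro rfl; norm_num at hy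
    obtain ⟨j, hj⟩ := X0_spec (y := y) (d := d) (b := false) hh (fun h2 => ⟨h1 h2, rfl⟩)
    have := ck_spec (by omega) (X0_ne hy0) r j
    rw [hj] at this
    rw [show (4 : ℤ) * d * (y - 1) * y = 4 * (d * (y - 1)) * y by ring]
    exact this
  · have h2 : (1 : ℤ) ≤ d := by
      have : 1 ≤ d := by omega
      exact_mod_cast this
    exact big_II2 hy' (abs_le_pow hy hd hdo hh) h2 (d_le hy hd hdo hh)

/-- **the family B'** -/
theorem quad_B' (h1 : h = 1 → d = 1) (hex : ¬ (y = 9 ∧ h = 1)) :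
    (3 * (y + 1) ^ 2 - 4 * (d : ℤ) * (y - 1) * y) * (y ^ h) ^ 2 + ((y + 1) * (-12 + 0 * ((d : ℤ) * (y - 1)))) * y ^ h +
      (1 * ((d : ℤ) * (y - 1)) ^ 2 + 4 * ((d : ℤ) * (y - 1)) + 12) ≠ 0 := by
  rcases lt_or_ge |y| 60 with hy' | hy'
  · have hr := row_of hy hd hdo hh hy'
    simp only [Bool.and_eq_true, Bool.or_eq_true] at hr
    obtain ⟨⟨-, r⟩, -⟩ := hr
    have hy0 : y ≠ 0 := by rintro rfl; norm_num at hy
    obtain ⟨j, hj⟩ := X0_spec (y := y) (d := d) (b := decide (y = 9)) hh (fun h2 => ⟨h1 h2, by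
      rw [decide_eq_false_iff_not]
      exact fun h4 => hex ⟨h4, h2⟩⟩)
    have := ck_spec (by omega) (X0_ne hy0) r j
    rw [hj] at this
    rw [show (4 : ℤ) * d * (y - 1) * y = 4 * (d * (y - 1)) * y by ring]
    exact this
  · have h2 : (1 : ℤ) ≤ d := by
      have : 1 ≤ d := by omega
      exact_mod_cast this
    exact big_II2' hy' (abs_le_pow hy hd hdo hh) h2 (d_le hy hd hdo hh)

/-- **the family C** -/
theorem quad_C (h3 : 3 ≤ d) (h1 : h = 1 → d = 1) :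
    (1 * (y + 1) ^ 2 - (d : ℤ) * (y - 1) * y) * (y ^ h) ^ 2 + ((y + 1) * (-4 + 1 * ((d : ℤ) * (y - 1)))) * y ^ h +
      (1 * ((d : ℤ) * (y - 1)) ^ 2 + -1 * ((d : ℤ) * (y - 1)) + 4) ≠ 0 := by
  rcases lt_or_ge |y| 60 with hy' | hy'
  · have hr := row_of hy hd hdo hh hy'
    simp only [Bool.and_eq_true, Bool.or_eq_true] at hr
    obtain ⟨-, r⟩ := hr
    have hS : ckC y d = true := by
      rcases r with r | r
      · have : d = 1 := by simpa using r
        omega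
      · exact r
    have hy0 : y ≠ 0 := by rintro rfl; norm_num at hy
    obtain ⟨j, hj⟩ := X0_spec (y := y) (d := d) (b := false) hh (fun h2 => ⟨h1 h2, rfl⟩)
    have := ck_spec (by omega) (X0_ne hy0) hS j
    rw [hj] at this
    exact this
  · exact big_II4 hy' (abs_le_pow hy hd hdo hh) (by exact_mod_cast h3) (d_le hy hd hdo hh)

end

end Cfsg.Agent.R2.Spec.X3.PL
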